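import Mathlib

/-!
# An automorphism of a group `C` with `C/⟨x⟩ ≅ A₄`, all of whose commutators have even order (helper595)
-/

set_option autoImplicit false

namespace Cfsg.Agent.H595.TwelvePts

open Subgroup Equiv Equiv.Perm

theorem alt_sq_or_cube : ∀ g : Perm (Fin 4), sign g = 1 → g * g = 1 ∨ g * g * g = 1 := by decide +kernel

theorem alt_comm : ∀ g h : Perm (Fin 4), sign g = 1 → sign h = 1 → g * g = 1 → h * h = 1 → g * h = h * g := by
  decide +kernel

/-- the even permutations of square one, not one -/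
def Inv4 (s : Perm (Fin 4)) : Prop := sign s = 1 ∧ s * s = 1 ∧ s ≠ 1

instance (s : Perm (Fin 4)) : Decidable (Inv4 s) := by unfold Inv4; infer_instance

/-- the even permutations of order three -/
def Thr4 (t : Perm (Fin 4)) : Prop := sign t = 1 ∧ t * t ≠ 1

instance (s : Perm (Fin 4)) : Decidable (Thr4 s) := by unfold Thr4; infer_instance

theorem alt_nc : ∀ s t : Perm (Fin 4), Inv4 s → Thr4 t → s * t ≠ t * s := by decide +kernel

theorem alt_four' : ∀ s t d : Perm (Fin 4), Inv4 s → Thr4 t → Inv4 d → d = s ∨ d = t * s * t⁻¹ ∨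
    d = s * (t * s * t⁻¹) := by
  decide +kernel

theorem alt_four (s t : Perm (Fin 4)) (hs : sign s = 1) (ht : sign t = 1) (hss : s * s = 1) (hs1 : s ≠ 1)
    (htt : t * t ≠ 1) : s * t ≠ t * s ∧ ∀ d : Perm (Fin 4), sign d = 1 → d * d = 1 → d = 1 ∨ d = s ∨ d = t * s * t⁻¹ ∨
      d = s * (t * s * t⁻¹) := by
  refine ⟨alt_nc s t ⟨hs, hss, hs1⟩ ⟨ht, htt⟩, fun d hd hdd => ?_⟩
  by_cases h : d = 1
  · exact Or.inl h
  · exact Or.inr (alt_four' s t d ⟨hs, hss, hs1⟩ ⟨ht, htt⟩ ⟨hd, hdd, h⟩)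

theorem alt_three : ∃ t : Perm (Fin 4), sign t = 1 ∧ t * t ≠ 1 := by
  refine ⟨Equiv.swap 0 1 * Equiv.swap 1 2, ?_⟩
  decide +kernel

/-- the order of a subgroup without a given transposition -/
theorem card_le_twelve {R : Subgroup (Perm (Fin 4))} (h : Equiv.swap 0 1 ∉ R) : Nat.card R ≤ 12 := by
  have h1 : Nat.card (Perm (Fin 4)) = 24 := by
    rw [Nat.card_eq_fintype_card, Fintype.card_perm, Fintype.card_fin]
    rfl
  have h2 := R.card_mul_index
  rw [h1] at h2
  have h3 : R.index ≠ 1 := by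
    rw [Ne, Subgroup.index_eq_one]
    rintro rfl
    exact h (mem_top _)
  have h4 : R.index ≠ 0 := by
    intro h0
    rw [h0] at h2
    omega
  have h5 : 2 ≤ R.index := by omega
  nlinarith

theorem eq_alt {R : Subgroup (Perm (Fin 4))} (h : Equiv.swap 0 1 ∉ R) (h12 : 12 ∣ Nat.card R) :
    R = alternatingGroup (Fin 4) := by
  have h1 : Nat.card (Perm (Fin 4)) = 24 := by
    rw [Nat.card_eq_fintype_card, Fintype.card_perm, Fintype.card_fin]
    rfl
  have h2 := R.card_mul_index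
  rw [h1] at h2
  have h3 := card_le_twelve h
  have h4 : 0 < Nat.card R := Nat.card_pos
  have h5 := Nat.le_of_dvd h4 h12
  have h6 : Nat.card R = 12 := by omega
  rw [h6] at h2
  exact Equiv.Perm.eq_alternatingGroup_of_index_eq_two (by omega)

section

variable {C : Type*} [Group C]

/-- see the head of the file -/
theorem eq_one_of_four {x : C} (hx3 : x ^ 3 = 1) (ψ : C →* Perm (Fin 4)) (hR : ψ.range = alternatingGroup (Fin 4))
    (hker : ∀ g, ψ g = 1 ↔ g ∈ zpowers x) (a : C →* C) (hax : a x = x)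
    (hbad : ∀ c, (a c)⁻¹ * c = 1 ∨ 2 ∣ orderOf ((a c)⁻¹ * c)) {s : C} (hs : a s = s)
    (hsq : ∀ c, a (a c) = s * c * s⁻¹) {n : ℕ} (hs2 : s ^ 2 ^ n = 1) : s = 1 := by
  have hsg : ∀ g, sign (ψ g) = 1 := by
    intro g
    have h1 : ψ g ∈ alternatingGroup (Fin 4) := by
      rw [← hR]
      exact ⟨g, rfl⟩
    exact Equiv.Perm.mem_alternatingGroup.1 h1
  -- the kernel
  have hk : ∀ g, ψ g = 1 → ψ (a g) = 1 := by
    intro g hg
    obtain ⟨i, rfl⟩ := (hker g).1 hg
    change ψ (a (x ^ i)) = 1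
    rw [map_zpow, hax]
    exact hg
  have hodd : ∀ g, ψ g = 1 → ∀ m : ℕ, g ^ 2 ^ m = 1 → g = 1 := by
    intro g hg m hm
    obtain ⟨i, rfl⟩ := (hker g).1 hg
    have h1 : (x ^ i) ^ 3 = 1 := by
      rw [← zpow_natCast, ← zpow_mul, mul_comm, zpow_mul, zpow_natCast, hx3, one_zpow]
    have h2 : orderOf (x ^ i) ∣ 3 := orderOf_dvd_of_pow_eq_one h1
    have h3 : orderOf (x ^ i) ∣ 2 ^ m := orderOf_dvd_of_pow_eq_one hm
    have h4 : Nat.Coprime 3 (2 ^ m) := Nat.Coprime.pow_right m (by norm_num)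
    exact orderOf_eq_one_iff.1 (Nat.eq_one_of_dvd_coprimes h4 h2 h3)
  -- commutators
  have hd : ∀ c, ψ ((a c)⁻¹ * c) * ψ ((a c)⁻¹ * c) = 1 := by
    intro c
    set d := (a c)⁻¹ * c with hdd
    rcases alt_sq_or_cube (ψ d) (hsg d) with h | h
    · exact h
    · rw [← map_mul, ← map_mul] at h
      obtain ⟨i, hi⟩ := (hker _).1 h
      have h1 : d ^ 9 = 1 := by
        have h2 : d ^ 9 = (x ^ i) ^ 3 := by
          change x ^ i = _ at hi
          rw [hi]
          simp only [pow_succ, pow_zero, one_mul, mul_assoc]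
        rw [h2, ← zpow_natCast, ← zpow_mul, mul_comm, zpow_mul, zpow_natCast, hx3, one_zpow]
      rcases hbad c with h3 | h3
      · rw [← hdd] at h3
        rw [h3, map_one, one_mul]
      · exfalso
        have h4 := h3.trans (orderOf_dvd_of_pow_eq_one h1)
        omega
  -- `ψ s`
  have hss : ψ s * ψ s = 1 := by
    rcases alt_sq_or_cube (ψ s) (hsg s) with h | h
    · exact h
    · have h1 : orderOf (ψ s) ∣ 3 := orderOf_dvd_of_pow_eq_one (by rw [pow_succ, pow_two]; exact h)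
      have h2 : orderOf (ψ s) ∣ 2 ^ n := orderOf_dvd_of_pow_eq_one (by rw [← map_pow, hs2, map_one])
      have h4 : Nat.Coprime 3 (2 ^ n) := Nat.Coprime.pow_right n (by norm_num)
      rw [orderOf_eq_one_iff.1 (Nat.eq_one_of_dvd_coprimes h4 h1 h2), one_mul]
  apply hodd s _ n hs2
  by_contra hne
  obtain ⟨t', ht1, ht2⟩ := alt_three
  obtain ⟨t, rfl⟩ : t' ∈ ψ.range := by
    rw [hR]
    exact Equiv.Perm.mem_alternatingGroup.2 ht1
  obtain ⟨hnc, hall⟩ := alt_four (ψ s) (ψ t) (hsg s) (hsg t) hss hne ht2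
  apply hnc
  set d := (a t)⁻¹ * t with hdd
  have hat : a t = t * d⁻¹ := by rw [hdd]; group
  have hdc := alt_comm (ψ d) (ψ s) (hsg d) (hsg s) (hd t) hss
  have hdinv : (ψ d)⁻¹ = ψ d := inv_eq_of_mul_eq_one_left (hd t)
  -- `ψ (a u) = ψ u`
  have hu : ψ (a (t * s * t⁻¹)) = ψ (t * s * t⁻¹) := by
    rw [map_mul a (t * s), map_mul a t, map_inv a, hs, hat]
    simp only [map_mul, map_inv, mul_inv_rev, inv_inv]
    rw [hdinv]
    calc ψ t * ψ d * ψ s * (ψ d * (ψ t)⁻¹) = ψ t * (ψ d * ψ s) * ψ d * (ψ t)⁻¹ := by group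
      _ = ψ t * (ψ s * ψ d) * ψ d * (ψ t)⁻¹ := by rw [hdc]
      _ = ψ t * ψ s * (ψ d * ψ d) * (ψ t)⁻¹ := by group
      _ = ψ t * ψ s * (ψ t)⁻¹ := by rw [hd t, mul_one]
  have hadd : ψ (a d) = ψ d := by
    have key : ∀ v : C, ψ (a v) = ψ v → ψ d = ψ v → ψ (a d) = ψ d := by
      intro v hv hdv
      have h1 : ψ (v⁻¹ * d) = 1 := by rw [map_mul, map_inv, hdv, inv_mul_cancel]
      have h2 := hk _ h1
      rw [map_mul, map_mul, map_inv, map_inv, hv, inv_mul_eq_one] at h2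
      rw [← h2, hdv]
    rcases hall (ψ d) (hsg d) (hd t) with h | h | h | h
    · exact key 1 (by rw [map_one]) (by rw [h, map_one])
    · exact key s (by rw [hs]) h
    · exact key (t * s * t⁻¹) hu (by rw [h, map_mul, map_mul, map_inv])
    · refine key (s * (t * s * t⁻¹)) ?_ (by rw [h, map_mul, map_mul, map_mul, map_inv])
      rw [map_mul a s, map_mul ψ (a s), hu, hs, map_mul ψ s]
  have h1 : ψ (a (a t)) = ψ t := by
    have h2 : a (a t) = a t * (a d)⁻¹ := by
      conv_lhs => rw [hat]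
      rw [map_mul, map_inv]
    rw [h2, map_mul, map_inv, hadd, hdinv, hat, map_mul, map_inv, hdinv, mul_assoc, hd t, mul_one]
  rw [hsq, map_mul, map_mul, map_inv, mul_inv_eq_iff_eq_mul] at h1
  exact h1

end

end Cfsg.Agent.H595.TwelvePts
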